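import Mathlib
import Cfsg.Agent.Lib.Helper14.DG33.Defs

/-!
# DG33 package [CARDBPT] (S3670)
-/

set_option autoImplicit false

universe u

namespace Cfsg.Agent.Lib.Helper66.DG33

open Cfsg.Agent.Lib.Helper14.DG33

/-- [CARDBPT] -/
theorem pkgCardBPT : PkgCardBPT.{u} := by
  intro G _ _ B P t hPB htB hBPT hPT
  classical
  have hzB : ∀ u : Subgroup.zpowers t, (u : G) ∈ B := by
    intro u
    have : Subgroup.zpowers t ≤ B := by
      rw [Subgroup.zpowers_le]; exact htB
    exact this u.2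
  have hpow : ∀ u : G, u ∈ Subgroup.zpowers t → ∃ k : ℕ, t ^ k = u := by
    intro u hu
    have h1 : u ∈ Submonoid.powers t :=
      (isOfFinOrder_of_finite t).mem_powers_iff_mem_zpowers.mpr hu
    exact (Submonoid.mem_powers_iff u t).mp h1
  let f : P × Subgroup.zpowers t → B := fun x =>
    ⟨(x.1 : G) * (x.2 : G), B.mul_mem (hPB x.1.2) (hzB x.2)⟩
  have hf : Function.Bijective f := by
    constructor
    · intro x y hxy
      have h1 : (x.1 : G) * (x.2 : G) = (y.1 : G) * (y.2 : G) :=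
        congrArg (fun b : B => (b : G)) hxy
      have h2 : (y.2 : G) * (x.2 : G)⁻¹ = (y.1 : G)⁻¹ * (x.1 : G) := by
        have : (y.2 : G) = (y.1 : G)⁻¹ * ((x.1 : G) * (x.2 : G)) := by rw [h1]; group
        rw [this]; group
      have h3 : (y.2 : G) * (x.2 : G)⁻¹ ∈ Subgroup.zpowers t :=
        (Subgroup.zpowers t).mul_mem y.2.2 ((Subgroup.zpowers t).inv_mem x.2.2)
      have h4 : (y.2 : G) * (x.2 : G)⁻¹ ∈ P := by
        rw [h2]; exact P.mul_mem (P.inv_mem y.1.2) x.1.2
      obtain ⟨k, hk⟩ := hpow _ h3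
      have h5 : t ^ k = 1 := hPT k (by rw [hk]; exact h4)
      have h6 : (y.2 : G) * (x.2 : G)⁻¹ = 1 := by rw [← hk, h5]
      have h7 : (y.2 : G) = (x.2 : G) := by
        have := mul_inv_eq_one.mp h6
        exact this
      have h8 : (x.1 : G) = (y.1 : G) := by
        rw [h7] at h1
        exact mul_right_cancel h1
      exact Prod.ext (Subtype.ext h8) (Subtype.ext h7.symm)
    · intro b
      obtain ⟨k, hk⟩ := hBPT b.1 b.2
      refine ⟨(⟨(b : G) * t ^ k, hk⟩, ⟨(t ^ k)⁻¹,
        (Subgroup.zpowers t).inv_mem ((Subgroup.zpowers t).pow_mem (Subgroup.mem_zpowers t) k)⟩), ?_⟩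
      apply Subtype.ext
      show (b : G) * t ^ k * (t ^ k)⁻¹ = (b : G)
      group
  have hcard : Nat.card (P × Subgroup.zpowers t) = Nat.card B :=
    Nat.card_congr (Equiv.ofBijective f hf)
  rw [← hcard, Nat.card_prod, Nat.card_zpowers]

end Cfsg.Agent.Lib.Helper66.DG33
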