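import Mathlib
import Cfsg.Agent.Lib.Helper14.DG33.Defs

/-!
# DG33 package [CARDBWB] (S3670)
-/

set_option autoImplicit false

universe u

namespace Cfsg.Agent.Lib.Helper66.DG33

open Cfsg.Agent.Lib.Helper14.DG33

/-- [CARDBWB] -/
theorem pkgCardBwB : PkgCardBwB.{u} := by
  intro G _ _ B T w hTB hw hbru hint
  classical
  -- choice of a representation
  have hrep : ∀ g : {g : G // g ∉ B}, ∃ p : B × B, (g : G) = (p.1 : G) * w * (p.2 : G) := by
    intro g
    obtain ⟨b₁, hb₁, b₂, hb₂, h⟩ := hbru g.1 g.2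
    exact ⟨(⟨b₁, hb₁⟩, ⟨b₂, hb₂⟩), h⟩
  choose s hs using hrep
  have hTconj : ∀ c : T, w⁻¹ * (c : G)⁻¹ * w ∈ B := by
    intro c
    have hc : (c : G)⁻¹ ∈ T := T.inv_mem c.2
    exact (hint _ (hTB hc)).mpr hc
  let f : {g : G // g ∉ B} × T → B × B := fun x =>
    (⟨((s x.1).1 : G) * (x.2 : G), B.mul_mem (s x.1).1.2 (hTB x.2.2)⟩,
     ⟨w⁻¹ * (x.2 : G)⁻¹ * w * ((s x.1).2 : G), B.mul_mem (hTconj x.2) (s x.1).2.2⟩)
  have hprod : ∀ x : {g : G // g ∉ B} × T,
      (((f x).1 : B) : G) * w * (((f x).2 : B) : G) = (x.1 : G) := by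
    intro x
    rw [hs x.1]
    show ((s x.1).1 : G) * (x.2 : G) * w * (w⁻¹ * (x.2 : G)⁻¹ * w * ((s x.1).2 : G)) = _
    group
  have hf : Function.Bijective f := by
    constructor
    · intro x y hxy
      have h1 : (x.1 : G) = (y.1 : G) := by
        rw [← hprod x, ← hprod y, hxy]
      have h1' : x.1 = y.1 := Subtype.ext h1
      have h2 : ((s x.1).1 : G) * (x.2 : G) = ((s y.1).1 : G) * (y.2 : G) := by
        have := congrArg (fun p : B × B => ((p.1 : B) : G)) hxy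
        exact this
      rw [h1'] at h2
      have h3 : (x.2 : G) = (y.2 : G) := mul_left_cancel h2
      exact Prod.ext h1' (Subtype.ext h3)
    · intro p
      have hg : (p.1 : G) * w * (p.2 : G) ∉ B := by
        intro h
        apply hw
        have h1 : ((p.1 : G))⁻¹ * ((p.1 : G) * w * (p.2 : G)) * ((p.2 : G))⁻¹ ∈ B :=
          B.mul_mem (B.mul_mem (B.inv_mem p.1.2) h) (B.inv_mem p.2.2)
        have h2 : ((p.1 : G))⁻¹ * ((p.1 : G) * w * (p.2 : G)) * ((p.2 : G))⁻¹ = w := by group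
        rwa [h2] at h1
      let g : {g : G // g ∉ B} := ⟨(p.1 : G) * w * (p.2 : G), hg⟩
      have hsg : (p.1 : G) * w * (p.2 : G) = ((s g).1 : G) * w * ((s g).2 : G) := hs g
      have hcB : ((s g).1 : G)⁻¹ * (p.1 : G) ∈ B := B.mul_mem (B.inv_mem (s g).1.2) p.1.2
      have hconj : w⁻¹ * (((s g).1 : G)⁻¹ * (p.1 : G)) * w = ((s g).2 : G) * ((p.2 : G))⁻¹ := by
        have h1 : w⁻¹ * (((s g).1 : G)⁻¹ * (p.1 : G)) * w
            = w⁻¹ * ((s g).1 : G)⁻¹ * ((p.1 : G) * w * (p.2 : G)) * ((p.2 : G))⁻¹ := by group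
        rw [h1, hsg]; group
      have hcT : ((s g).1 : G)⁻¹ * (p.1 : G) ∈ T := by
        apply (hint _ hcB).mp
        rw [hconj]
        exact B.mul_mem (s g).2.2 (B.inv_mem p.2.2)
      refine ⟨(g, ⟨((s g).1 : G)⁻¹ * (p.1 : G), hcT⟩), ?_⟩
      apply Prod.ext
      · apply Subtype.ext
        show ((s g).1 : G) * (((s g).1 : G)⁻¹ * (p.1 : G)) = (p.1 : G)
        group
      · apply Subtype.ext
        show w⁻¹ * (((s g).1 : G)⁻¹ * (p.1 : G))⁻¹ * w * ((s g).2 : G) = (p.2 : G)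
        have h1 : w⁻¹ * (((s g).1 : G)⁻¹ * (p.1 : G))⁻¹ * w
            = (w⁻¹ * (((s g).1 : G)⁻¹ * (p.1 : G)) * w)⁻¹ := by group
        rw [h1, hconj]; group
  have hcard : Nat.card ({g : G // g ∉ B} × T) = Nat.card (B × B) :=
    Nat.card_congr (Equiv.ofBijective f hf)
  rw [Nat.card_prod, Nat.card_prod] at hcard
  have hsplit : Nat.card G = Nat.card B + Nat.card {g : G // g ∉ B} := by
    haveI : Fintype G := Fintype.ofFinite G
    rw [Nat.card_eq_fintype_card, Nat.card_eq_fintype_card, Nat.card_eq_fintype_card]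
    rw [Fintype.card_subtype_compl (fun g : G => g ∈ B)]
    have : Fintype.card {g : G // g ∈ B} ≤ Fintype.card G := Fintype.card_subtype_le _
    have h2 : Fintype.card B = Fintype.card {g : G // g ∈ B} := Fintype.card_congr (Equiv.refl _)
    omega
  rw [hsplit, add_mul, hcard, pow_two]

end Cfsg.Agent.Lib.Helper66.DG33
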